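import Cfsg.Agent.Chars.FieldOfValues57.Basic
import Cfsg.Agent.PGroup.Kulakoff
import Cfsg.Agent.TwoGroup.Structure
import Mathlib.GroupTheory.Sylow

/-!
# Sylow 2-subgroups with commutator quotient of order four
-/

set_option autoImplicit false
set_option maxHeartbeats 800000

namespace CfsgLib.FieldOfValues57

open Cfsg CfsgLib.Chars IntermediateField
open scoped commutatorElement

/-- A two-element of a subgroup containing a Sylow subgroup is conjugate in it into that Sylow. -/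
theorem exists_conj_mem {G : Type*} [Group G] [Finite G] {p : ℕ} [Fact p.Prime] (P : Sylow p G)
    (N : Subgroup G) (hle : (P : Subgroup G) ≤ N) (R : Subgroup G) (hR : IsPGroup p R)
    (hRN : R ≤ N) : ∃ u ∈ N, ∀ x ∈ R, u * x * u⁻¹ ∈ P := by
  have hR' : IsPGroup p (R.subgroupOf N) :=
    hR.comap_of_injective N.subtype Subtype.val_injective
  obtain ⟨Q, hQ⟩ := hR'.exists_le_sylow
  obtain ⟨u, hu⟩ := MulAction.exists_smul_eq N Q (P.subtype hle)
  refine ⟨u, u.2, fun x hx => ?_⟩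
  have h1 : (u * ⟨x, hRN hx⟩ * u⁻¹ : N) ∈ ((u • Q : Sylow p N) : Subgroup N) := by
    rw [Sylow.coe_subgroup_smul]
    exact ⟨⟨x, hRN hx⟩, hQ hx, rfl⟩
  rw [hu] at h1
  exact h1

theorem natCast_eq_iff {G : Type*} [Group G] {g : G} {N : ℕ} (hg : orderOf g = N) (a b : ℕ) :
    g ^ a = g ^ b ↔ (a : ZMod N) = (b : ZMod N) := by
  rw [pow_eq_pow_iff_modEq, hg, ZMod.natCast_eq_natCast_iff]

theorem root_pow_eq_iff {ζ : ℂ} {N : ℕ} [NeZero N] (hζ : IsPrimitiveRoot ζ N) (a b : ℕ) :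
    ζ ^ a = ζ ^ b ↔ (a : ZMod N) = (b : ZMod N) := by
  obtain ⟨u, rfl⟩ := hζ.isUnit (NeZero.ne N)
  rw [← Units.val_pow_eq_pow_val, ← Units.val_pow_eq_pow_val, ← Units.ext_iff]
  exact natCast_eq_iff (orderOf_units.symm.trans hζ.eq_orderOf.symm) a b

/-- The exponents `2 ^ (n - 1) - 1` and `2 ^ (n - 2) - 1`. -/
def MaxExp (n c : ℕ) : Prop := c = 2 ^ (n - 1) - 1 ∨ c = 2 ^ (n - 2) - 1

theorem MaxExp.odd {n c : ℕ} (hn : 3 ≤ n) (h : MaxExp n c) : Odd c := by
  obtain ⟨k, rfl⟩ : ∃ k, n = k + 3 := ⟨n - 3, by omega⟩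
  rcases h with rfl | rfl
  · refine ⟨2 ^ (k + 1) - 1, ?_⟩
    have := Nat.one_le_two_pow (n := k + 1)
    simp only [show k + 3 - 1 = k + 1 + 1 by omega, pow_succ 2 (k + 1)]
    omega
  · refine ⟨2 ^ k - 1, ?_⟩
    have := Nat.one_le_two_pow (n := k)
    simp only [show k + 3 - 2 = k + 1 by omega, pow_succ 2 k]
    omega

theorem MaxExp.sq {n c : ℕ} (hn : 3 ≤ n) (h : MaxExp n c) :
    (c : ZMod (2 ^ (n - 1))) * c = 1 := by
  obtain ⟨k, rfl⟩ : ∃ k, n = k + 3 := ⟨n - 3, by omega⟩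
  unfold MaxExp at h
  simp only [show k + 3 - 1 = k + 2 by omega, show k + 3 - 2 = k + 1 by omega] at h ⊢
  have hN : ((2 : ZMod (2 ^ (k + 2))) ^ (k + 2)) = 0 := by
    have := ZMod.natCast_self (2 ^ (k + 2))
    push_cast at this
    exact this
  rcases h with rfl | rfl <;>
    rw [Nat.cast_sub Nat.one_le_two_pow, Nat.cast_pow, Nat.cast_one, Nat.cast_ofNat]
  · rw [hN]; ring
  · linear_combination (2 ^ k - 1 : ZMod (2 ^ (k + 2))) * hN

theorem MaxExp.root {n c : ℕ} (hn : 3 ≤ n) {ζ : ℂ} (hζ : IsPrimitiveRoot ζ (2 ^ (n - 1)))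
    (h : MaxExp n c) :
    (c = 2 ^ (n - 1) - 1 ∧ ζ ^ c = ζ⁻¹) ∨ (c = 2 ^ (n - 2) - 1 ∧ ζ ^ c = -ζ⁻¹) := by
  have h0 : ζ ≠ 0 := hζ.ne_zero (pow_ne_zero _ (by norm_num))
  rcases h with rfl | rfl
  · refine Or.inl ⟨rfl, ?_⟩
    rw [pow_sub₀ _ h0 Nat.one_le_two_pow, hζ.pow_eq_one, pow_one, one_mul]
  · refine Or.inr ⟨rfl, ?_⟩
    have h2 : IsPrimitiveRoot (ζ ^ 2 ^ (n - 2)) 2 := by
      refine hζ.pow (pow_pos two_pos _) ?_
      rw [← pow_succ, show n - 2 + 1 = n - 1 by omega]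
    rw [pow_sub₀ _ h0 Nat.one_le_two_pow, h2.eq_neg_one_of_two_right, pow_one, neg_one_mul]

theorem index_commutator_congr {A B : Type*} [Group A] [Group B] (e : A ≃* B) :
    (commutator A).index = (commutator B).index := by
  rw [Subgroup.index_eq_card, Subgroup.index_eq_card]
  exact Nat.card_congr e.abelianizationCongr.toEquiv

variable {G : Type*} [Group G] [Finite G]

theorem not_commutative_of_even {P : Sylow 2 G} {g : G} (hg : g ∈ P)
    (heven : 2 ∣ (Subgroup.centralizer ({g} : Set G)).index) : ¬ IsMulCommutative P := by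
  intro hc
  have hle : (P : Subgroup G) ≤ Subgroup.centralizer ({g} : Set G) := by
    intro x hx
    rw [Subgroup.mem_centralizer_singleton_iff]
    exact congrArg Subtype.val (mul_comm' (⟨x, hx⟩ : P) ⟨g, hg⟩)
  exact P.not_dvd_index (heven.trans (Subgroup.index_dvd_of_le hle))

/-- An element with a rational-type field of values gives a Sylow subgroup of maximal class. -/
theorem index_eq_four_of_element {n : ℕ} (hn : 3 ≤ n) (P : Sylow 2 G) (hP : Nat.card P = 2 ^ n)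
    {ζ t : ℂ} (hζ : IsPrimitiveRoot ζ (2 ^ (n - 1))) {c : ℕ} (hc : MaxExp n c)
    (ht : (t = ζ + ζ⁻¹ ∧ ζ ^ c = ζ⁻¹) ∨ (t = ζ - ζ⁻¹ ∧ ζ ^ c = -ζ⁻¹))
    {g : G} (hg : g ∈ P) (heven : 2 ∣ (Subgroup.centralizer ({g} : Set G)).index)
    (hE : adjoin ℚ {z : ℂ | ∃ χ : IrrCharacter G, (χ : G → ℂ) g = z} = ℚ⟮t⟯) :
    (commutator P).index = 4 := by
  haveI : Fact (Nat.Prime 2) := ⟨Nat.prime_two⟩
  have hnc := not_commutative_of_even hg heven
  have hge : 4 ≤ (commutator P).index :=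
    CfsgLib.TwoGroup.four_le_index_commutator P.isPGroup' hnc
  rcases hn.eq_or_lt with rfl | hn4
  · -- order eight
    have hne : commutator P ≠ ⊥ := fun h =>
      hnc (CfsgLib.TwoGroup.commutator_eq_bot_iff_comm.1 h)
    have hcard : 2 ≤ Nat.card (commutator P) :=
      (commutator P).one_lt_card_iff_ne_bot.2 hne
    have hmul := (commutator P).card_mul_index
    rw [hP, show (2 : ℕ) ^ 3 = 8 by norm_num] at hmul
    have := Nat.mul_le_mul hcard (le_refl (commutator P).index)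
    rw [hmul] at this
    omega
  have hg2n : orderOf g ∣ 2 ^ n := hP ▸ Subgroup.orderOf_dvd_natCard _ hg
  have hodd : ∀ a : ℕ, Odd a → a.Coprime (2 ^ n) := fun a ha =>
    Nat.Coprime.pow_right _ (Nat.coprime_two_right.2 ha)
  have crit : ∀ a : ℕ, Odd a →
      (IsConj g (g ^ a) ↔ (ζ ^ a = ζ ∨ ζ ^ a = ζ ^ c)) := by
    intro a ha
    obtain ⟨σ, hσ⟩ := CfsgLib.GaloisHom.exists_ringHom_pow (pow_pos two_pos n) (hodd a ha)
    rw [← fix_values_iff hg2n σ hσ, hE]
    refine fix_trace_iff (pow_pos two_pos _) hζ ht σ fun z hz => hσ z ?_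
    obtain ⟨d, hd⟩ := pow_dvd_pow 2 (Nat.sub_le n 1)
    rw [hd, pow_mul, hz, one_pow]
  -- the order of `g`
  have hord : orderOf g = 2 ^ (n - 1) := by
    obtain ⟨j, hj, hj'⟩ := (Nat.dvd_prime_pow Nat.prime_two).1 hg2n
    rcases lt_trichotomy j (n - 1) with hjn | hjn | hjn
    · exfalso
      have ho : Odd (1 + 2 ^ (n - 2)) := by
        obtain ⟨k, rfl⟩ : ∃ k, n = k + 3 := ⟨n - 3, by omega⟩
        refine ⟨2 ^ k, ?_⟩
        simp only [show k + 3 - 2 = k + 1 by omega, pow_succ]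
        omega
      have hfix : g ^ (1 + 2 ^ (n - 2)) = g := by
        obtain ⟨d, hd⟩ := pow_dvd_pow 2 (show j ≤ n - 2 by omega)
        rw [pow_add, pow_one, hd, pow_mul, ← hj', pow_orderOf_eq_one, one_pow, mul_one]
      have h2lt : 2 ^ (n - 2) < 2 ^ (n - 1) := Nat.pow_lt_pow_right one_lt_two (by omega)
      have h4le : 4 ≤ 2 ^ (n - 2) := Nat.pow_le_pow_right two_pos (show 2 ≤ n - 2 by omega)
      have hsucc : 2 ^ (n - 1) = 2 * 2 ^ (n - 2) := by
        rw [← pow_succ']; congr 1; omega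
      have hclt : c < 2 ^ (n - 1) := by rcases hc with rfl | rfl <;> omega
      rcases (crit _ ho).1 (hfix.symm ▸ IsConj.refl g) with h | h
      · have := hζ.pow_inj (show 1 + 2 ^ (n - 2) < 2 ^ (n - 1) by omega)
          (show 1 < 2 ^ (n - 1) by omega) (h.trans (pow_one ζ).symm)
        omega
      · have := hζ.pow_inj (show 1 + 2 ^ (n - 2) < 2 ^ (n - 1) by omega) hclt h
        rcases hc with rfl | rfl <;> omega
    · rw [hj', hjn]
    · exfalso
      have hjn' : j = n := by omega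
      refine hnc ?_
      haveI : IsCyclic P := isCyclic_of_orderOf_eq_card (⟨g, hg⟩ : P)
        (by rw [Subgroup.orderOf_mk, hj', hjn', hP])
      infer_instance
  have hcodd := hc.odd hn
  obtain ⟨x, hx⟩ := isConj_iff.1 ((crit c hcodd).2 (Or.inr rfl))
  -- the two-part of the conjugating element
  set s := (orderOf x).factorization 2 with hs
  set r := orderOf x / 2 ^ s with hr
  have hrs : 2 ^ s * r = orderOf x := Nat.ordProj_mul_ordCompl_eq_self _ 2
  have hrodd : Odd r := Nat.not_even_iff_odd.1 fun he =>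
    Nat.not_dvd_ordCompl Nat.prime_two (orderOf_pos x).ne' (even_iff_two_dvd.1 he)
  have hpow : ∀ i : ℕ, x ^ i * g * (x ^ i)⁻¹ = g ^ c ^ i := by
    intro i
    induction i with
    | zero => simp
    | succ i ih =>
      calc x ^ (i + 1) * g * (x ^ (i + 1))⁻¹ = x * (x ^ i * g * (x ^ i)⁻¹) * x⁻¹ := by
            rw [pow_succ']; group
        _ = (x * g * x⁻¹) ^ c ^ i := by rw [ih, conj_pow]
        _ = g ^ c ^ (i + 1) := by rw [hx, ← pow_mul, ← pow_succ']
  have hy : x ^ r * g * (x ^ r)⁻¹ = g ^ c := by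
    rw [hpow, natCast_eq_iff hord]
    push_cast
    obtain ⟨d, hd⟩ := hrodd
    rw [hd, pow_add, pow_mul, pow_two, hc.sq hn, one_pow, one_mul, pow_one]
  have hy2 : (x ^ r) ^ (2 ^ s) = 1 := by
    rw [← pow_mul, mul_comm, hrs, pow_orderOf_eq_one]
  set y := x ^ r
  have hyp : IsPGroup 2 (Subgroup.zpowers y) := by
    obtain ⟨i, -, hi⟩ := (Nat.dvd_prime_pow Nat.prime_two).1 (orderOf_dvd_of_pow_eq_one hy2)
    exact IsPGroup.of_card (n := i) (by rw [Nat.card_zpowers, hi])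
  have hgp : IsPGroup 2 (Subgroup.zpowers g) :=
    IsPGroup.of_card (n := n - 1) (by rw [Nat.card_zpowers, hord])
  have hnorm : Subgroup.zpowers y ≤ Subgroup.normalizer (Subgroup.zpowers g : Set G) := by
    rw [Subgroup.zpowers_le]
    refine Subgroup.mem_normalizer_iff_map_conj_eq.2 ?_
    rw [MonoidHom.map_zpowers]
    show Subgroup.zpowers (y * g * y⁻¹) = Subgroup.zpowers g
    rw [hy]
    refine Subgroup.eq_of_le_of_card_ge (Subgroup.zpowers_le.2 (pow_mem
      (Subgroup.mem_zpowers g) c)) ?_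
    rw [Nat.card_zpowers, Nat.card_zpowers, Nat.Coprime.orderOf_pow]
    rw [hord]
    exact Nat.Coprime.pow_left _ (Nat.coprime_two_left.2 hcodd)
  have hT : IsPGroup 2 ↥(Subgroup.zpowers g ⊔ Subgroup.zpowers y) :=
    hgp.to_sup_of_normal_left' hyp hnorm
  obtain ⟨R, hR⟩ := hT.exists_le_sylow
  have hgR : g ∈ R := hR (Subgroup.mem_sup_left (Subgroup.mem_zpowers g))
  have hyR : y ∈ R := hR (Subgroup.mem_sup_right (Subgroup.mem_zpowers y))
  rw [index_commutator_congr (P.equiv R)]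
  have hne : g ^ c ≠ g := by
    intro h
    rw [← pow_one (g ^ c), ← pow_mul, mul_one] at h
    have h1 := (pow_inj_mod.1 (h.trans (pow_one g).symm))
    rw [hord] at h1
    have h2lt : 2 ^ (n - 2) < 2 ^ (n - 1) := Nat.pow_lt_pow_right one_lt_two (by omega)
    have h4le : 4 ≤ 2 ^ (n - 2) := Nat.pow_le_pow_right two_pos (show 2 ≤ n - 2 by omega)
    rcases hc with rfl | rfl <;>
      rw [Nat.mod_eq_of_lt (by omega), Nat.mod_eq_of_lt (by omega)] at h1 <;> omega
  have hncR : ¬ IsMulCommutative R := fun h => hne <| by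
    rw [← hy]
    have : y * g = g * y := congrArg Subtype.val (mul_comm' (⟨y, hyR⟩ : R) ⟨g, hgR⟩)
    rw [this, mul_inv_cancel_right]
  refine le_antisymm ?_ (CfsgLib.TwoGroup.four_le_index_commutator R.isPGroup' hncR)
  have hRc : Nat.card R = 2 ^ n := by
    rw [← Nat.card_congr (P.equiv R).toEquiv]; exact hP
  obtain ⟨d, hd, hdodd⟩ : ∃ d, c = 1 + 2 * d ∧ Odd d := by
    unfold MaxExp at hc
    obtain ⟨k, rfl⟩ : ∃ k, n = k + 4 := ⟨n - 4, by omega⟩
    have e1 : 2 ^ (k + 3) = 8 * 2 ^ k := by rw [pow_add]; ring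
    have e2 : 2 ^ (k + 2) = 4 * 2 ^ k := by rw [pow_add]; ring
    have := Nat.one_le_two_pow (n := k)
    rcases hc with rfl | rfl
    · refine ⟨4 * 2 ^ k - 1, ?_, ⟨2 * 2 ^ k - 1, ?_⟩⟩
      · simp only [show k + 4 - 1 = k + 3 by omega, e1]; omega
      · omega
    · refine ⟨2 * 2 ^ k - 1, ?_, ⟨2 ^ k - 1, ?_⟩⟩
      · simp only [show k + 4 - 2 = k + 2 by omega, e2]; omega
      · omega
  let h : R := ⁅(⟨y, hyR⟩ : R), ⟨g, hgR⟩⁆
  have hh : h ∈ commutator R :=
    Subgroup.commutator_mem_commutator (Subgroup.mem_top _) (Subgroup.mem_top _)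
  have hhv : (h : G) = (g ^ 2) ^ d := by
    show y * g * y⁻¹ * g⁻¹ = _
    rw [hy, hd, pow_add, pow_one, ← pow_mul, ((Commute.refl g).pow_right (2 * d)).eq,
      mul_inv_cancel_right]
  have hho : orderOf h = 2 ^ (n - 2) := by
    rw [← Subgroup.orderOf_coe, hhv]
    have hg2 : orderOf (g ^ 2) = 2 ^ (n - 2) := by
      rw [orderOf_pow_of_dvd two_ne_zero (hord ▸ dvd_pow_self 2 (by omega)), hord,
        show n - 1 = n - 2 + 1 by omega, pow_succ, Nat.mul_div_cancel _ two_pos]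
    rw [Nat.Coprime.orderOf_pow, hg2]
    rw [hg2]
    exact Nat.Coprime.pow_left _ (Nat.coprime_two_left.2 hdodd)
  have hcard : 2 ^ (n - 2) ≤ Nat.card (commutator R) := by
    rw [← hho, ← Nat.card_zpowers]
    exact Subgroup.card_le_of_le (Subgroup.zpowers_le.2 hh)
  have hmul := (commutator R).card_mul_index
  have h5 : (2 : ℕ) ^ n = 2 ^ (n - 2) * 4 := by
    rw [show (4 : ℕ) = 2 ^ 2 by norm_num, ← pow_add]; congr 1; omega
  rw [hRc, h5] at hmul
  have h1 := Nat.mul_le_mul_right (commutator R).index hcard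
  rw [hmul] at h1
  exact Nat.le_of_mul_le_mul_left h1 (pow_pos two_pos _)

/-- A Sylow subgroup of maximal class has an element with such a field of values. -/
theorem exists_element_of_index {n : ℕ} (hn : 3 ≤ n) (P : Sylow 2 G) (hP : Nat.card P = 2 ^ n)
    {ζ : ℂ} (hζ : IsPrimitiveRoot ζ (2 ^ (n - 1))) (h4 : (commutator P).index = 4) :
    ∃ g : G, g ∈ P ∧ 2 ∣ (Subgroup.centralizer ({g} : Set G)).index ∧
      (adjoin ℚ {z : ℂ | ∃ χ : IrrCharacter G, (χ : G → ℂ) g = z} = ℚ⟮ζ + ζ⁻¹⟯ ∨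
        adjoin ℚ {z : ℂ | ∃ χ : IrrCharacter G, (χ : G → ℂ) g = z} = ℚ⟮ζ - ζ⁻¹⟯) := by
  haveI : Fact (Nat.Prime 2) := ⟨Nat.prime_two⟩
  obtain ⟨m, rfl⟩ : ∃ m, n = m + 1 := ⟨n - 1, by omega⟩
  simp only [Nat.add_sub_cancel] at hζ
  have hm2 : 2 ≤ m := by omega
  obtain ⟨ρ, τ, hρ, ⟨F⟩⟩ :=
    CfsgLib.PGroup.exists_maxType_frame_of_index (G := P) hP hm2 h4
  haveI : NeZero (2 ^ m) := ⟨pow_ne_zero _ two_ne_zero⟩
  obtain ⟨c, hc, hcρ⟩ : ∃ c, MaxExp (m + 1) c ∧ (c : ZMod (2 ^ m)) = ρ := by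
    rcases hρ with rfl | ⟨-, rfl⟩
    · refine ⟨2 ^ m - 1, Or.inl rfl, ?_⟩
      rw [Nat.cast_sub Nat.one_le_two_pow, ZMod.natCast_self]; simp
    · refine ⟨2 ^ (m + 1 - 2) - 1, Or.inr rfl, ?_⟩
      rw [Nat.cast_sub Nat.one_le_two_pow, CfsgLib.TwoGroup.half]
      simp [sub_eq_neg_add]
  set g : G := (F.e 1 : G) with hgdef
  set y : G := (F.y : G) with hydef
  have hg : g ∈ P := (F.e 1).2
  have hord : orderOf g = 2 ^ m := by rw [hgdef, Subgroup.orderOf_coe, F.orderOf_e_one]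
  have hy : y * g * y⁻¹ = g ^ c := by
    have h1 : F.y * F.e 1 * F.y⁻¹ = F.e 1 ^ c := by
      rw [← F.map_nsmul, hcρ, F.conj_y, mul_one, mul_inv_cancel_right]
    simpa using congrArg Subtype.val h1
  -- conjugation by elements of the subgroup
  have hP' : ∀ z ∈ (P : Subgroup G), z * g * z⁻¹ = g ∨ z * g * z⁻¹ = g ^ c := by
    intro z hz
    obtain ⟨i, hi | hi⟩ := F.cover ⟨z, hz⟩
    · left
      have h1 : (⟨z, hz⟩ : P) * F.e 1 * (⟨z, hz⟩ : P)⁻¹ = F.e 1 := by
        rw [hi, (F.comm_e i 1).eq, mul_inv_cancel_right]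
      simpa using congrArg Subtype.val h1
    · right
      have h1 : (⟨z, hz⟩ : P) * F.e 1 * (⟨z, hz⟩ : P)⁻¹ = F.e 1 ^ c := by
        rw [hi, F.conj_e, mul_one, ← F.map_nsmul, hcρ, mul_one]
      simpa using congrArg Subtype.val h1
  have hcodd := hc.odd hn
  set N := Subgroup.normalizer (Subgroup.zpowers g : Set G) with hN
  have hmemN : ∀ (z : G) (a : ℕ), Odd a → z * g * z⁻¹ = g ^ a → z ∈ N := by
    intro z a ha hz
    refine Subgroup.mem_normalizer_iff_map_conj_eq.2 ?_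
    rw [MonoidHom.map_zpowers]
    show Subgroup.zpowers (z * g * z⁻¹) = Subgroup.zpowers g
    rw [hz]
    refine Subgroup.eq_of_le_of_card_ge (Subgroup.zpowers_le.2 (pow_mem
      (Subgroup.mem_zpowers g) a)) ?_
    rw [Nat.card_zpowers, Nat.card_zpowers, Nat.Coprime.orderOf_pow]
    rw [hord]
    exact Nat.Coprime.pow_left _ (Nat.coprime_two_left.2 ha)
  have hPN : (P : Subgroup G) ≤ N := by
    intro z hz
    rcases hP' z hz with h | h
    · exact hmemN z 1 odd_one (by rw [pow_one, h])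
    · exact hmemN z c hcodd h
  -- the power maps induced in the normalizer
  have hNgen : ∀ u ∈ N, ∃ j : ℕ, u * g * u⁻¹ = g ^ j := by
    intro u hu
    have h1 : u * g * u⁻¹ ∈ Subgroup.zpowers g :=
      (Subgroup.mem_normalizer_iff.1 hu g).1 (Subgroup.mem_zpowers g)
    rw [← mem_powers_iff_mem_zpowers] at h1
    obtain ⟨j, hj⟩ := h1
    exact ⟨j, hj.symm⟩
  have hcne : (c : ZMod (2 ^ m)) ≠ 1 := by
    intro h
    rw [hcρ] at h
    exact hρ.ne_one hm2 h
  -- two-elements of the normalizer act trivially or as `c`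
  have htwo : ∀ z ∈ N, IsPGroup 2 (Subgroup.zpowers z) →
      z * g * z⁻¹ = g ∨ z * g * z⁻¹ = g ^ c := by
    intro z hz hzp
    obtain ⟨u, hu, hmem⟩ := exists_conj_mem P N hPN (Subgroup.zpowers z) hzp
      (Subgroup.zpowers_le.2 hz)
    have hzu := hmem z (Subgroup.mem_zpowers z)
    obtain ⟨j, hj⟩ := hNgen u hu
    obtain ⟨i, hi⟩ := hNgen u⁻¹ (inv_mem hu)
    rw [inv_inv] at hi
    have hgu : (u⁻¹ * g * u) ^ j = g := by
      calc (u⁻¹ * g * u) ^ j = (u⁻¹ * g * u⁻¹⁻¹) ^ j := by rw [inv_inv]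
        _ = u⁻¹ * g ^ j * u⁻¹⁻¹ := conj_pow
        _ = u⁻¹ * (u * g * u⁻¹) * u⁻¹⁻¹ := by rw [hj]
        _ = g := by group
    have e : z * (u⁻¹ * g * u) * z⁻¹ = u⁻¹ * ((u * z * u⁻¹) * g * (u * z * u⁻¹)⁻¹) * u := by
      group
    have e2 : z * g * z⁻¹ = (z * (u⁻¹ * g * u) * z⁻¹) ^ j := by rw [conj_pow, hgu]
    rcases hP' _ hzu with h | h
    · left
      rw [e2, e, h, hgu]
    · right
      rw [e2, e, h]
      have ec : (u⁻¹ * g * u) ^ c = u⁻¹ * g ^ c * u := by
        simpa using (conj_pow (a := u⁻¹) (b := g) (i := c))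
      calc (u⁻¹ * g ^ c * u) ^ j = ((u⁻¹ * g * u) ^ c) ^ j := by rw [ec]
        _ = g ^ c := by rw [← pow_mul, mul_comm, pow_mul, hgu]
  refine ⟨g, hg, ?_, ?_⟩
  · -- the class has even size
    by_contra hodd2
    set C := Subgroup.centralizer ({g} : Set G)
    have hyC : ¬ y ∈ C := by
      intro h
      rw [Subgroup.mem_centralizer_singleton_iff] at h
      rw [h, mul_inv_cancel_right, eq_comm] at hy
      exact hcne (by simpa using (natCast_eq_iff hord c 1).1 (hy.trans (pow_one g).symm))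
    let Q : Sylow 2 C := default
    set R := (Q : Subgroup C).map C.subtype with hR
    have hRcard : Nat.card R = Nat.card P := by
      rw [hR, Subgroup.card_map_of_injective Subtype.val_injective, Q.card_eq_multiplicity,
        P.card_eq_multiplicity, ← C.card_mul_index,
        Nat.factorization_mul Nat.card_pos.ne' C.index_ne_zero_of_finite]
      simp [Nat.factorization_eq_zero_of_not_dvd hodd2]
    have hCN : C ≤ N := by
      intro z hz
      refine hmemN z 1 odd_one ?_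
      rw [Subgroup.mem_centralizer_singleton_iff] at hz
      rw [pow_one, hz, mul_inv_cancel_right]
    obtain ⟨u, hu, hmem⟩ := exists_conj_mem P N hPN R
      (Q.isPGroup'.map C.subtype) ((Subgroup.map_subtype_le _).trans hCN)
    let φ : R → P := fun x => ⟨u * x * u⁻¹, hmem x x.2⟩
    have hφ : Function.Surjective φ := by
      refine (Function.Injective.bijective_of_nat_card_le (fun a b h => ?_) hRcard.ge).2
      exact Subtype.ext (mul_left_cancel (mul_right_cancel (congrArg Subtype.val h)))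
    obtain ⟨⟨x, hxR⟩, hx⟩ := hφ F.y
    have hxy : u * x * u⁻¹ = y := congrArg Subtype.val hx
    have hxC : x ∈ C := Subgroup.map_subtype_le _ hxR
    obtain ⟨i, hi⟩ := hNgen u⁻¹ (inv_mem hu)
    rw [inv_inv] at hi
    apply hyC
    rw [Subgroup.mem_centralizer_singleton_iff] at hxC ⊢
    rw [← hxy]
    have h2 : Commute x (g ^ i) := Commute.pow_right hxC i
    calc u * x * u⁻¹ * g = u * (x * (u⁻¹ * g * u)) * u⁻¹ := by group
      _ = u * ((u⁻¹ * g * u) * x) * u⁻¹ := by rw [hi, h2.eq]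
      _ = g * (u * x * u⁻¹) := by group
  · -- the field of values
    have hexp : ∀ a : ℕ, Odd a →
        (IsConj g (g ^ a) ↔ (ζ ^ a = ζ ∨ ζ ^ a = ζ ^ c)) := by
      intro a ha
      nth_rw 2 [← pow_one ζ]
      rw [root_pow_eq_iff hζ, root_pow_eq_iff hζ, Nat.cast_one]
      constructor
      · intro hconj
        obtain ⟨z, hz⟩ := isConj_iff.1 hconj
        set s := (orderOf z).factorization 2 with hs
        set r := orderOf z / 2 ^ s with hr
        have hrs : 2 ^ s * r = orderOf z := Nat.ordProj_mul_ordCompl_eq_self _ 2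
        have hrodd : Odd r := Nat.not_even_iff_odd.1 fun he =>
          Nat.not_dvd_ordCompl Nat.prime_two (orderOf_pos z).ne' (even_iff_two_dvd.1 he)
        have hpow : ∀ i : ℕ, z ^ i * g * (z ^ i)⁻¹ = g ^ a ^ i := by
          intro i
          induction i with
          | zero => simp
          | succ i ih =>
            calc z ^ (i + 1) * g * (z ^ (i + 1))⁻¹ = z * (z ^ i * g * (z ^ i)⁻¹) * z⁻¹ := by
                  rw [pow_succ']; group
              _ = (z * g * z⁻¹) ^ a ^ i := by rw [ih, conj_pow]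
              _ = g ^ a ^ (i + 1) := by rw [hz, ← pow_mul, ← pow_succ']
        have hzN : z ^ r ∈ N := pow_mem (hmemN z a ha hz) r
        have hzp : IsPGroup 2 (Subgroup.zpowers (z ^ r)) := by
          obtain ⟨i, -, hi⟩ := (Nat.dvd_prime_pow Nat.prime_two).1
            (orderOf_dvd_of_pow_eq_one (show (z ^ r) ^ (2 ^ s) = 1 by
              rw [← pow_mul, mul_comm, hrs, pow_orderOf_eq_one]))
          exact IsPGroup.of_card (n := i) (by rw [Nat.card_zpowers, hi])
        have h2 := htwo _ hzN hzp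
        rw [hpow r] at h2
        nth_rw 2 [← pow_one g] at h2
        rw [natCast_eq_iff hord, natCast_eq_iff hord, Nat.cast_one, Nat.cast_pow] at h2
        have hac : a.Coprime (2 ^ m) := Nat.Coprime.pow_right _ (Nat.coprime_two_right.2 ha)
        have hu : ((ZMod.unitOfCoprime a hac : (ZMod (2 ^ m))ˣ) : ZMod (2 ^ m)) = a := rfl
        set u := ZMod.unitOfCoprime a hac
        have hcop : r.Coprime (orderOf u) := by
          refine Nat.Coprime.coprime_dvd_right
            (orderOf_dvd_card.trans (ZMod.card_units_eq_totient _).dvd) ?_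
          rw [Nat.totient_prime_pow Nat.prime_two (by omega)]
          simpa using Nat.Coprime.pow_right (m - 1) (Nat.coprime_two_right.2 hrodd)
        obtain ⟨e, he⟩ := exists_pow_eq_self_of_coprime hcop
        have he' : ((a : ZMod (2 ^ m)) ^ r) ^ e = a := by
          rw [← hu, ← Units.val_pow_eq_pow_val, ← Units.val_pow_eq_pow_val, he]
        rcases h2 with h2 | h2 <;> rw [h2] at he'
        · exact Or.inl (by rw [← he', one_pow])
        · rcases Nat.even_or_odd e with ⟨d, rfl⟩ | ⟨d, rfl⟩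
          · left
            rw [← he', ← two_mul, pow_mul, pow_two, hc.sq hn, one_pow]
          · right
            rw [← he', pow_succ, pow_mul, pow_two, hc.sq hn, one_pow, one_mul]
      · rintro (h | h)
        · rw [(natCast_eq_iff hord a 1).2 (by simpa using h), pow_one]
        · rw [(natCast_eq_iff hord a c).2 h]
          exact isConj_iff.2 ⟨y, hy⟩
    have main : ∀ t : ℂ, ((t = ζ + ζ⁻¹ ∧ ζ ^ c = ζ⁻¹) ∨ (t = ζ - ζ⁻¹ ∧ ζ ^ c = -ζ⁻¹)) →
        adjoin ℚ {z : ℂ | ∃ χ : IrrCharacter G, (χ : G → ℂ) g = z} = ℚ⟮t⟯ := by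
      intro t ht
      have hE := values_le (pow_pos two_pos m) hζ (g := g) hord.dvd
      have hF : ℚ⟮t⟯ ≤ ℚ⟮ζ⟯ := adjoin_trace_le (ht.imp And.left And.left)
      have hiff : ∀ (a : ℕ) (σ : ℂ →+* ℂ), a.Coprime (2 ^ m) →
          (∀ z : ℂ, z ^ 2 ^ m = 1 → σ z = z ^ a) →
          ((∀ x ∈ adjoin ℚ {z : ℂ | ∃ χ : IrrCharacter G, (χ : G → ℂ) g = z}, σ x = x) ↔
            ∀ x ∈ ℚ⟮t⟯, σ x = x) := by
        intro a σ ha hσ
        rw [fix_values_iff hord.dvd σ hσ, fix_trace_iff (pow_pos two_pos m) hζ ht σ hσ]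
        exact hexp a (Nat.coprime_two_right.1 ((Nat.coprime_pow_right_iff (by omega) _ _).1 ha))
      exact le_antisymm
        (le_of_fix (pow_pos two_pos m) hζ _ _ hE hF fun a σ ha hσ => (hiff a σ ha hσ).2)
        (le_of_fix (pow_pos two_pos m) hζ _ _ hF hE fun a σ ha hσ => (hiff a σ ha hσ).1)
    rcases hc.root hn (by simpa using hζ) with ⟨-, h⟩ | ⟨-, h⟩
    · exact Or.inl (main _ (Or.inl ⟨rfl, h⟩))
    · exact Or.inr (main _ (Or.inr ⟨rfl, h⟩))

end CfsgLib.FieldOfValues57
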